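import Cfsg.Agent.H162.CC.Tools3
import Cfsg.Agent.KFacts.Th.Main
import Cfsg.Agent.CpAutTh.Final

/-!
# S3828, the row of the Thompson group at `p = 2` (helper961)

The abelian normal 2-subgroups of `C(a) = 2^{1+8}.A9` are contained in `⟨a⟩`.
-/

set_option autoImplicit false
set_option maxRecDepth 100000

namespace Cfsg.Agent.H961.CTh

open Subgroup Cfsg Cfsg.Agent.H162.CCR
open Cfsg.Agent.Th.Base Cfsg.Agent.Th.Word Cfsg.Agent.Th.RelWords Cfsg.Agent.KFacts.Th.Struct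
  Cfsg.Agent.Th.CStruct

section

universe u

variable {G : Type u} [Group G] {γ : ℕ → G}

/-- normal 2-subgroups of `C` are contained in `Q0` -/
theorem le_Q0 (h : Ctx γ) {A : Subgroup G} (hA : A ≤ sub γ isC)
    (hn : sub γ isC ≤ normalizer (A : Set G)) (hp : IsPGroup 2 ↥A) : A ≤ Q0 γ := by
  obtain ⟨f, hf, hker, -⟩ := h.exists_epi
  intro a ha
  have h1 : (A.subgroupOf (sub γ isC)).Normal := ⟨by
    intro q hq d
    exact mem_subgroupOf.2 ((mem_normalizer_iff.1 (hn d.2) q).1 (mem_subgroupOf.1 hq))⟩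
  have h2 : IsPGroup 2 ↥(A.subgroupOf (sub γ isC)) := hp.comap_of_injective _ (subtype_injective _)
  have h3 := Cfsg.Agent.KFacts.Th.Nor.normal_two_alt _ (h1.map f hf) (h2.map f)
  have h4 : f ⟨a, hA ha⟩ ∈ (A.subgroupOf (sub γ isC)).map f := ⟨_, mem_subgroupOf.2 ha, rfl⟩
  rw [h3, mem_bot, ← MonoidHom.mem_ker, hker] at h4
  exact h4

/-- abelian normal 2-subgroups of `C` have exponent 2 -/
theorem abelian_sq (h : Ctx γ) {A : Subgroup G} (hA : A ≤ sub γ isC)
    (hn : sub γ isC ≤ normalizer (A : Set G)) (hp : IsPGroup 2 ↥A) (hab : ∀ x ∈ A, ∀ y ∈ A, x * y = y * x)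
    {x : G} (hx : x ∈ A) : x * x = 1 := by
  have hQ := le_Q0 h hA hn hp
  by_cases hx1 : x = 1
  · rw [hx1, one_mul]
  by_cases hxa : x = γ 1
  · rw [hxa]; exact h.aa
  exfalso
  have h1 : A = Q0 γ := h.eq_top_of_normal A hQ (fun g hg n hn' => by
    have h2 := (mem_normalizer_iff.1 (hn ((sub γ isC).inv_mem hg)) n).1 hn'
    rwa [inv_inv] at h2) hx hx1 hxa
  rcases h.eq_of_cent (x := x) (fun q hq => hab x hx q (by rw [h1]; exact hq)) with h3 | h3
  · exact hx1 h3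
  · exact hxa h3

end

/-- **Th, p = 2.** -/
theorem crow_two : CRow 2 Spor.Th := by
  have := Cfsg.Agent.KFacts.Th.Main.finite
  have hs := Cfsg.Agent.CpAutTh.Main.simple
  have h2 : Fact (Nat.Prime 2) := ⟨Nat.prime_two⟩
  have h := Cfsg.Agent.KFacts.Th.Main.ctx
  intro C hC
  refine hC.eq_one_of_two_abelian (pCore_eq_bot_of_simple Cfsg.Agent.CpAutTh.Main.noncomm 2)
    (H := sub Cfsg.Agent.Th.IndexUpper.gTh isC) ?_ ?_ ?_
  · intro h1
    have h3 := h.index_eq
    rw [h1, index_top] at h3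
    exact absurd h3 (by norm_num)
  · rw [h.index_eq]; norm_num
  · intro A h1 h3 h4 h5 x hx
    exact abelian_sq h h1 h3 h4 h5 hx

end Cfsg.Agent.H961.CTh
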